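/-
P31, R2: simple groups of 2-rank at most two with element orders at most 6.
-/
import Cfsg.Agent.P31.SG
import Cfsg.Agent.P29.Rk2
import Cfsg.Agent.P29.Ly
import Cfsg.Agent.H5.Kegel
import Cfsg.Agent.FT.P.BG01_1

set_option autoImplicit false
set_option linter.unusedSectionVars false

namespace Cfsg.Agent.P31

open Subgroup Cfsg Cfsg.Agent Cfsg.Agent.FT Cfsg.Agent.P6 Cfsg.Agent.P29
open scoped commutatorElement

universe u

namespace R8

variable {G : Type u} [Group G] [Finite G]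

/-- An element of order 3 modulo `C(V)` makes `C(V)` nilpotent. -/
theorem nil (h6 : Or6 G) {t z k : G} (it : Inv t) (iz : Inv z) (ne : t ≠ z) (c : t * z = z * t)
    (om : Om (𝐂[t] ⊓ 𝐂[z]) t z) (e1 : k * z * k⁻¹ = t) (e2 : k * t * k⁻¹ = t * z) :
    Group.IsNilpotent (𝐂[t] ⊓ 𝐂[z] : Subgroup G) := by
  have e3 : k * (t * z) * k⁻¹ = z := by
    calc _ = k * t * k⁻¹ * (k * z * k⁻¹) := by group
      _ = z := by rw [e1, e2, c, mul_assoc, it.sq, mul_one]
  have n1 : t * z ≠ z := fun e => it.ne (by simpa using e)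
  have n2 : t * z ≠ t := fun e => iz.ne (by simpa using e)
  refine H5.isNilpotent_of_coset_pow Nat.prime_three _ k (mem_norm_of_conj_le ?_) fun g hg => ?_
  · rw [conj_inf, ← cent1_conj, ← cent1_conj, e1, e2]
    refine fun w hw => ⟨hw.2, mem_cent1.2 (mul_left_cancel (a := t) ?_)⟩
    rw [← mul_assoc, mem_cent1.1 hw.1, ← mul_assoc, ← mul_assoc, mem_cent1.1 hw.2]
  have g1 := mem_cent1_iff_conj.1 hg.1
  have g2 := mem_cent1_iff_conj.1 hg.2
  have g3 : g * (t * z) * g⁻¹ = t * z := by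
    calc _ = g * t * g⁻¹ * (g * z * g⁻¹) := by group
      _ = _ := by rw [g1, g2]
  have cj : ∀ a, g * k * a * (g * k)⁻¹ = g * (k * a * k⁻¹) * g⁻¹ := fun a => by group
  have x1 := cj z
  have x2 := cj t
  have x3 := cj (t * z)
  rw [e1, g1] at x1
  rw [e2, g3] at x2
  rw [e3, g2] at x3
  generalize g * k = x at x1 x2 x3 ⊢
  have p2 : ∀ a, x ^ 2 * a * (x ^ 2)⁻¹ = x * (x * a * x⁻¹) * x⁻¹ := fun a => by
    rw [pow_two]; group
  have p3 : ∀ a, x ^ 3 * a * (x ^ 3)⁻¹ = x * (x * (x * a * x⁻¹) * x⁻¹) * x⁻¹ := fun a => by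
    rw [pow_three]; group
  have c3 : x ^ 3 ∈ 𝐂[t] ⊓ 𝐂[z] := ⟨mem_cent1_iff_conj.2 (by rw [p3, x2, x3, x1]),
    mem_cent1_iff_conj.2 (by rw [p3, x1, x2, x3])⟩
  have d3 : 3 ∣ orderOf x := by
    have h1 : x ^ (orderOf x % 3) ∈ 𝐂[z] := by
      have := pow_orderOf_eq_one x
      rw [← Nat.div_add_mod (orderOf x) 3, pow_add, pow_mul] at this
      rw [eq_inv_of_mul_eq_one_right this]
      exact inv_mem (pow_mem c3.2 _)
    have : orderOf x % 3 = 0 ∨ orderOf x % 3 = 1 ∨ orderOf x % 3 = 2 := by omega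
    rcases this with e | e | e
    · exact Nat.dvd_of_mod_eq_zero e
    · rw [e, pow_one, mem_cent1_iff_conj, x1] at h1; exact absurd h1 ne
    · rw [e, mem_cent1_iff_conj, p2, x1, x2] at h1; exact absurd h1 n1
  have x6 : x ^ 3 * x ^ 3 = 1 := by
    rw [← pow_add]
    refine orderOf_dvd_iff_pow_eq_one.1 ?_
    have h1 := h6 x
    have h2 := orderOf_pos x
    have : orderOf x = 3 ∨ orderOf x = 6 := by omega
    rcases this with e | e <;> rw [e] <;> norm_num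
  have f : x * x ^ 3 * x⁻¹ = x ^ 3 := by group
  rcases om _ c3 x6 with e | e | e | e
  · exact e
  · rw [e, x2] at f; exact absurd f n2
  · rw [e, x1] at f; exact absurd f ne
  · rw [e, x3] at f; exact absurd f.symm n1

theorem npc (h6 : Or6 G) {S : Subgroup G} {t z : G} (hS : IsSyl 2 S ⊤) (it : Inv t) (iz : Inv z)
    (ne : t ≠ z) (tS : t ∈ S) (hc : S ≤ 𝐂[t] ⊓ 𝐂[z]) (om : Om (𝐂[t] ⊓ 𝐂[z]) t z)
    (hn : HasNPC 2 (𝐂[t] ⊓ 𝐂[z])) : HasNPC 2 𝐂[z] := by
  have hR : IsSyl 2 S 𝐂[z] := hS.of_le (hc.trans inf_le_right) le_top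
  have sol := SG.csolv h6 z iz.ne (by rw [pow_two, iz.sq])
  have nL := pPrimePCoreOf_normal 2 𝐂[z]
  have hP := hR.inf_normal Nat.prime_two nL
  have tQ : t ∈ S ⊓ pPrimePCoreOf 2 𝐂[z] := ⟨tS, SG.mem_L h6 iz hR tS fun q hq => by
    rw [commutatorElement_eq_one_iff_mul_comm.2 (mem_cent1.1 (hc hq).1).symm]; exact one_mem _⟩
  have nO := pPrimeCoreOf_normal 2 𝐂[z]
  have l1 : pPrimePCoreOf 2 𝐂[z] ≤ H2.pPrimeCoreOf 2 𝐂[z] ⊔ S :=
    (pPrimePCoreOf_eq_sup Nat.prime_two hP).ge.trans (sup_le_sup_left inf_le_left _)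
  have e : H2.pPrimeCoreOf 2 𝐂[z] ⊔ S = 𝐂[z] := by
    refine le_antisymm (sup_le nO.1 hR.le) ((hP.frattini Nat.prime_two nL).ge.trans (sup_le l1 ?_))
    refine le_of_forall_exists_isSyl_le fun p hp _ => ?_
    by_cases p2 : p = 2
    · subst p2
      exact ⟨S, hR.of_le (le_inf hR.le (by
        rw [inf_comm]; exact (inf_normal nL hR.le).2)) inf_le_left, le_sup_right⟩
    obtain ⟨P, hP'⟩ := exists_isSyl hp (𝐂[z] ⊓ 𝐍(S ⊓ pPrimePCoreOf 2 𝐂[z]))
    have oP := odd_of_isPGroup hp p2 hP'.pgrp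
    have PC : P ≤ 𝐂[t] ⊓ 𝐂[z] := fun r hr => by
      obtain ⟨rs, rn⟩ := hP'.le hr
      have r3 := SG.cube h6 iz rs (odd_orderOf_of_mem oP hr)
      have rz := mem_cent1_iff_conj.1 rs
      refine ⟨mem_cent1_iff_conj.2 ?_, rs⟩
      rcases om _ (hc ((mem_normalizer_iff.1 rn t).1 tQ).1) (it.conj r).sq with e | e | e | e
      · exact absurd e (it.conj r).ne
      · exact e
      · exact absurd ((MulAut.conj r).injective (e.trans rz.symm)) ne
      · have e2 : r * (t * z) * r⁻¹ = t := by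
          calc _ = r * t * r⁻¹ * (r * z * r⁻¹) := by group
            _ = _ := by rw [e, rz, mul_assoc, iz.sq, mul_one]
        calc r * t * r⁻¹ = r * (r * (r * t * r⁻¹) * r⁻¹) * r⁻¹ := by rw [e, e2, e]
          _ = r ^ 3 * t * (r ^ 3)⁻¹ := by rw [pow_three]; group
          _ = t := by rw [r3]; group
    refine ⟨P, hP', le_trans (le_inf (PC.trans inf_le_right) ?_)
      ((solvable_p_constrained Nat.prime_two sol hP).trans l1)⟩
    exact hn.le_cent Nat.prime_two hP.pgrp (inf_le_left.trans hc) PC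
      (Nat.two_dvd_ne_zero.2 (Nat.odd_iff.1 oP)) (hP'.le.trans inf_le_right)
  have := (hall_of_sup (π := {2}) (hR.le.trans nO.2) ((isPi_singleton_iff Nat.prime_two).2 hR.pgrp)
    ((isPi_compl_singleton_iff Nat.prime_two).2 (H2.coprime_card_pPrimeCoreOf 2 𝐂[z]))).2
  rwa [e] at this

/-- All involutions of a Sylow 2-subgroup are central. -/
theorem nc (h6 : Or6 G) {S : Subgroup G} {z g : G} (hS : IsSyl 2 S ⊤) (iz : Inv z)
    (ne : g * z * g⁻¹ ≠ z) (zS : z ∈ S) (tS : g * z * g⁻¹ ∈ S)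
    (hc : S ≤ 𝐂[g * z * g⁻¹] ⊓ 𝐂[z]) (om : Om (𝐂[g * z * g⁻¹] ⊓ 𝐂[z]) (g * z * g⁻¹) z) :
    NC (⊤ : Subgroup G) := by
  have it := iz.conj g
  obtain ⟨k, hk, e1⟩ := P18.U.cent_fusion hS (hc.trans inf_le_right) (mem_top g)
    (hc.trans inf_le_left)
  generalize g * z * g⁻¹ = t at *
  have c : t * z = z * t := mem_cent1.1 (hc zS).1
  have e2 : k * t * k⁻¹ = t * z := by
    rcases om _ (hc ((mem_normalizer_iff.1 hk.2 t).1 tS)) (it.conj k).sq with e | e | e | e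
    · exact absurd e (it.conj k).ne
    · exact absurd ((MulAut.conj k).injective (e.trans e1.symm)) ne
    · exfalso
      have := H1.normal_subgroupOf_of_le (le_rfl : 𝐍(S) ≤ 𝐍(S))
      have h1 : k ^ S.relIndex 𝐍(S) ∈ S := (S.subgroupOf _).pow_index_mem (⟨k, hk.2⟩ : 𝐍(S))
      obtain ⟨m, hm⟩ := Nat.odd_iff.2 (Nat.two_dvd_ne_zero.1 (hS.of_le le_normalizer le_top).ndvd)
      have h2 : k ^ 2 ∈ 𝐂[z] := mem_cent1_iff_conj.2 (by
        calc _ = k * (k * z * k⁻¹) * k⁻¹ := by rw [pow_two]; group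
          _ = z := by rw [e1, e])
      rw [hm, pow_succ, pow_mul] at h1
      have h3 := (mul_mem_cancel_left (pow_mem h2 m)).1 (hc h1).2
      exact ne (e1.symm.trans (mem_cent1_iff_conj.1 h3))
    · exact e
  have h1 := npc h6 hS it iz ne tS hc om
    (hasNPC_of_isNilpotent Nat.prime_two (nil h6 it iz ne c om e1 e2))
  have h2 : ∀ a : G, HasNPC 2 (⊤ ⊓ 𝐂[a * z * a⁻¹]) := fun a => by
    rw [top_inf_eq, cent1_conj]
    exact (hasNPC_map_iff (conj_injective a) Nat.prime_two).2 h1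
  intro u iu
  obtain ⟨a, -, ha⟩ := hS.exists_conj_le Nat.prime_two
    (H2.ZC.isPGroup_zpowers (by rw [pow_two, iu.sq])) (le_top : zpowers u ≤ ⊤)
  have f : ∀ b : G, a * u * a⁻¹ = b * z * b⁻¹ → HasNPC 2 (⊤ ⊓ 𝐂[u]) := fun b e => by
    have : u = a⁻¹ * b * z * (a⁻¹ * b)⁻¹ := by
      calc u = a⁻¹ * (a * u * a⁻¹) * a := by group
        _ = _ := by rw [e]; group
    rw [this]; exact h2 _
  rcases om _ (hc (ha (conj_mem_conj (mem_zpowers u) a))) (iu.conj a).sq with e | e | e | e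
  · exact absurd e (iu.conj a).ne
  · exact f k (e.trans e1.symm)
  · exact f 1 (by rw [e]; group)
  · exact f (k * k) (by rw [e, ← e2, ← e1]; group)

/-- An element of a 2-group properly above the Sylow 2-subgroup of `C(t) ∩ C(z)`. -/
theorem swap {S1 R : Subgroup G} {t z w : G} (h1 : IsSyl 2 S1 (𝐂[t] ⊓ 𝐂[z])) (iz : Inv z)
    (ne : t ≠ z) (zS : z ∈ S1) (hR : IsPGroup 2 R) (lt : S1 < R) (hc : R ≤ 𝐂[t])
    (om : ∀ a ∈ S1, a * a = 1 → a = 1 ∨ a = t ∨ a = z ∨ a = w) :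
    ∃ a ∈ R, a * z * a⁻¹ = w := by
  obtain ⟨a, aR, aN, a1⟩ := H1.exists_mem_normalizer_of_lt
    (isNilpotent_of_isPGroup Nat.prime_two hR) lt
  refine ⟨a, aR, ?_⟩
  rcases om _ ((mem_normalizer_iff.1 aN z).1 zS) (iz.conj a).sq with e | e | e | e
  · exact absurd e (iz.conj a).ne
  · exact absurd ((MulAut.conj a).injective (e.trans (mem_cent1_iff_conj.1 (hc aR)).symm)) ne.symm
  · exact absurd ((h1.eq_of_le Nat.prime_two (Q := R ⊓ 𝐂[z]) (le_inf lt.le (h1.le.trans inf_le_right))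
      (inf_le_inf_right _ hc) (hR.to_le inf_le_left)).le ⟨aR, mem_cent1_iff_conj.2 e⟩) a1
  · exact e

end R8

theorem r2Stmt (f3 : F3Stmt.{u}) : R2Stmt.{u} := by
  intro X _ _ h6 _ hs na n8
  refine or_iff_not_imp_left.2 fun h8 => ?_
  rw [not_not] at h8
  obtain ⟨S0, hS0⟩ := exists_isSyl Nat.prime_two (⊤ : Subgroup X)
  have h8S : ∀ {S : Subgroup X}, IsSyl 2 S ⊤ → 8 ∣ 𝐨(S) := fun {S} hS => by
    have h3 := hS.ndvd
    rw [← card_top, ← H1.card_mul_relIndex hS.le] at h8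
    exact ((Nat.prime_two.coprime_iff_not_dvd.2 h3).pow_left 3).dvd_of_dvd_mul_right h8
  obtain ⟨z, -, zc, z1, zz⟩ := P4.exists_invol_center hS0.pgrp ⟨le_rfl, le_normalizer⟩
    fun e => by have := h8S hS0; rw [e, card_bot] at this; omega
  have iz : Inv z := ⟨z1, zz⟩
  have hz : S0 ≤ 𝐂[z] := fun x hx => mem_cent1.2 (mem_cent.1 zc x hx).symm
  obtain ⟨g, hg, ne⟩ : ∃ g, Commute z (g * z * g⁻¹) ∧ g * z * g⁻¹ ≠ z := by
    by_contra! h0
    have h2 := P1.zstar iz.orderOf_eq h0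
    rcases (inferInstance : (pPrimeCore 2 X).Normal).eq_bot_or_eq_top with e | e
    · refine H6.Cyc.cent1_ne_top' na z1 (eq_top_iff.2 fun x _ => mem_cent1.2 ?_)
      have := h2 x
      rwa [e, mem_bot, commutatorElement_eq_one_iff_mul_comm] at this
    · have := L.coprime_card_pPrimeCore (G := X) 2
      rw [e, card_top] at this
      exact absurd (this.coprime_dvd_left ((by norm_num : 2 ∣ 8).trans h8)) (by norm_num)
  have it := iz.conj g
  have zC : z ∈ 𝐂[g * z * g⁻¹] ⊓ 𝐂[z] := ⟨mem_cent1.2 hg.eq.symm, self_mem_cent1 z⟩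
  have tC : g * z * g⁻¹ ∈ 𝐂[g * z * g⁻¹] ⊓ 𝐂[z] := ⟨self_mem_cent1 _, mem_cent1.2 hg.eq⟩
  have n8' : ¬ E8 (𝐂[g * z * g⁻¹] ⊓ 𝐂[z]) := fun e => n8 (e.mono le_top)
  have om := om_of_not_e8 it iz ne tC zC inf_le_left inf_le_right n8'
  have hV := H2.ZC.isElem_two z1 (by rw [pow_two, zz]) it.ne (by rw [pow_two, it.sq]) ne tC.2
  obtain ⟨S1, h1, l1⟩ := exists_isSyl_ge Nat.prime_two hV.pgrp
    (sup_le (zpowers_le.2 zC) (zpowers_le.2 tC))
  have zS := l1 (mem_sup_left (mem_zpowers z))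
  have tS := l1 (mem_sup_right (mem_zpowers _))
  obtain ⟨S, hS, l2⟩ := exists_isSyl_ge Nat.prime_two h1.pgrp (h1.le.trans inf_le_right)
  obtain ⟨R, hR, l3⟩ := exists_isSyl_ge Nat.prime_two h1.pgrp (h1.le.trans inf_le_left)
  have cS := hS.card_eq Nat.prime_two (hS0.of_le hz le_top)
  have hS' : IsSyl 2 S ⊤ := hS0.of_card_eq Nat.prime_two le_top cS
  by_cases hc : S ≤ 𝐂[g * z * g⁻¹]
  · exact (rk2Stmt lyStmt X hs na (R8.nc h6 hS' iz ne (l2 zS) (l2 tS) (le_inf hc hS.le) om)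
      n8).resolve_left (not_not.2 h8)
  have lt2 : S1 < S := lt_of_le_of_ne l2 fun e => hc (e.ge.trans (h1.le.trans inf_le_left))
  have lt3 : S1 < R := lt_of_le_of_ne l3 fun e => by
    have h2 := hR.card_dvd Nat.prime_two (Q := S ^ᵍ g) (hS.conj g).pgrp (by
      rw [cent1_conj]; exact conj_mono hS.le g)
    rw [card_conj, ← e] at h2
    exact lt2.ne (H1.eq_of_le_of_card_le l2 (Nat.le_of_dvd Nat.card_pos h2))
  obtain ⟨a, aR, ha⟩ := R8.swap h1 iz ne zS hR.pgrp lt3 hR.le fun a ha => om a (h1.le ha)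
  obtain ⟨b, bS, hb⟩ := R8.swap (w := g * z * g⁻¹ * z) (by rwa [inf_comm]) it ne.symm tS hS.pgrp
    lt2 hS.le fun a ha aa => by have := om a (h1.le ha) aa; tauto
  have key := f3 X h6 _ z a b it iz ne hg.eq.symm (mem_cent1_iff_conj.1 (hR.le aR)) ha
    (mem_cent1_iff_conj.1 (hS.le bS)) hb n8'
  have sc : P4.SelfCent (⟨z, l2 zS⟩ : S) ⟨_, l2 tS⟩ :=
    ⟨fun e => z1 (congrArg Subtype.val e), fun e => it.ne (congrArg Subtype.val e),
      fun e => ne (congrArg Subtype.val e).symm, Subtype.ext zz, Subtype.ext it.sq,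
      Subtype.ext hg.eq, fun a c1 c2 => by
        rcases key a ⟨mem_cent1.2 (congrArg Subtype.val c2), mem_cent1.2 (congrArg Subtype.val c1)⟩
          (h6.pow4 hS.pgrp a.2) with e | e | e | e
        · exact Or.inl (Subtype.ext e)
        · exact Or.inr (Or.inr (Or.inl (Subtype.ext e)))
        · exact Or.inr (Or.inl (Subtype.ext e))
        · exact Or.inr (Or.inr (Or.inr (Subtype.ext (e.trans hg.eq.symm))))⟩
  obtain ⟨x, z', s, m⟩ := sc.exists_max2' (S := ⊤) ⟨le_rfl, hS.pgrp.to_subgroup _, by simp⟩ trivial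
    (mem_cent.2 fun a _ => Subtype.ext (mem_cent1.1 (hS.le a.2)).symm) trivial
  have m := Rk.max2_up hS' m
  refine ⟨S, x, z', s, m, m.cases.resolve_right fun e => ?_⟩
  have x4 := h6.pow4 hS.pgrp x.2
  have xx : (x : X) * x ≠ 1 := fun e' => by
    have h2 := Nat.le_of_dvd two_pos (orderOf_dvd_of_pow_eq_one ((pow_two _).trans e'))
    have h3 := Nat.le_of_dvd Nat.card_pos (h8S hS')
    rw [m.card] at h3
    omega
  have e2 := (m.uniq (mul_mem (mem_zpowers _) (mem_zpowers _))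
    (by rw [← x4]; simp only [pow_succ, pow_zero, one_mul, mul_assoc])).resolve_left xx
  rw [← e2, inv_mul_cancel_left] at e
  refine xx (m.cs _ (mem_zpowers _) ?_)
  rw [← m.s_inv] at e
  nth_rewrite 1 [m.s_inv] at e
  exact mul_inv_eq_iff_eq_mul.1 e

end Cfsg.Agent.P31
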